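import Mathlib

/-! The 2-group `(Z_N × Z_N) ⋊ (Z₂ × Z₂)`, `N = 2^(n+2)` (Sylow 2-subgroup of `G₂(q)`, `q` odd). -/

set_option autoImplicit false

namespace Cfsg.Agent.G2S

/-- coordinates -/
abbrev R (n : ℕ) : Type := ZMod (2 ^ (n + 2))

variable {n : ℕ}

instance instNeZeroR : NeZero (2 ^ (n + 2)) := ⟨by positivity⟩

/-- a quarter of the exponent -/
def q (n : ℕ) : R n := 2 ^ n

theorem q4 : 4 * q n = 0 := by
  have : ((2 ^ (n + 2) : ℕ) : R n) = 0 := ZMod.natCast_self _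
  push_cast at this
  rw [q]; linear_combination this

theorem pow_top : (2 : R n) ^ (n + 2) = 0 := by
  have := q4 (n := n)
  rw [q] at this; linear_combination this

theorem cast_eq_zero {a : ℤ} : (a : R n) = 0 ↔ (2 : ℤ) ^ (n + 2) ∣ a := by
  rw [ZMod.intCast_zmod_eq_zero_iff_dvd]; push_cast; rfl

theorem q2 : 2 * q n ≠ 0 := by
  intro h
  have : ((2 ^ (n + 1) : ℤ) : R n) = 0 := by push_cast; rw [q] at h; linear_combination h
  rw [cast_eq_zero] at this
  have h2 := Int.le_of_dvd (by positivity) this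
  have : (0 : ℤ) < 2 ^ n := by positivity
  rw [pow_add, pow_add] at h2
  omega

theorem two_mul_eq_zero {a : R n} (h : 2 * a = 0) : a = 0 ∨ a = 2 * q n := by
  obtain ⟨a, rfl⟩ := ZMod.intCast_surjective a
  have : ((2 * a : ℤ) : R n) = 0 := by push_cast; exact h
  rw [cast_eq_zero] at this
  obtain ⟨c, hc⟩ := this
  have hc' : a = 2 ^ (n + 1) * c := by rw [pow_succ] at hc; linarith
  obtain ⟨d, hd | hd⟩ := Int.even_or_odd' c
  · left; rw [hc', hd]; push_cast; linear_combination (d : R n) * pow_top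
  · right; rw [hc', hd, q]; push_cast; linear_combination (d : R n) * pow_top

theorem parity (a : R n) : ∃ b, a = 2 * b ∨ a = 2 * b + 1 := by
  obtain ⟨a, rfl⟩ := ZMod.intCast_surjective a
  obtain ⟨d, hd | hd⟩ := Int.even_or_odd' a
  · exact ⟨d, Or.inl (by rw [hd]; push_cast; rfl)⟩
  · exact ⟨d, Or.inr (by rw [hd]; push_cast; rfl)⟩

theorem odd_ne_zero (b : R n) : 2 * b + 1 ≠ 0 := by
  obtain ⟨b, rfl⟩ := ZMod.intCast_surjective b
  intro h
  have : ((2 * b + 1 : ℤ) : R n) = 0 := by push_cast; exact h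
  rw [cast_eq_zero] at this
  have := (dvd_pow_self 2 (by omega)).trans this
  omega

theorem eq_zero_of_four (h : (4 : R n) = 0) : n = 0 := by
  have : ((4 : ℤ) : R n) = 0 := by push_cast; exact h
  rw [cast_eq_zero] at this
  have h2 := Int.le_of_dvd (by norm_num) this
  rcases n with _ | n
  · rfl
  · have : (0 : ℤ) < 2 ^ n := by positivity
    rw [pow_add, pow_add] at h2
    omega

theorem two_mul_eq {a : R n} (h : 2 * a = 2 * q n) : a = q n ∨ a = -q n := by
  rcases two_mul_eq_zero (a := a - q n) (by linear_combination h) with h | h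
  · left; linear_combination h
  · right; linear_combination h + q4

theorem two_ne_zero' : (2 : R n) ≠ 0 := fun h => q2 (by rw [h, zero_mul])

/-- the element `a^i b^j s^e c^f` -/
@[ext] structure M (n : ℕ) where
  i : R n
  j : R n
  e : Bool
  f : Bool
  deriving DecidableEq, Fintype

namespace M

/-- multiplication -/
def mul (a b : M n) : M n :=
  match a.e, a.f with
  | false, false => ⟨a.i + b.i, a.j + b.j, b.e, b.f⟩
  | true, false => ⟨a.i + b.j, a.j + b.i, !b.e, b.f⟩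
  | false, true => ⟨a.i - b.i, a.j - b.j, b.e, !b.f⟩
  | true, true => ⟨a.i - b.j, a.j - b.i, !b.e, !b.f⟩

/-- inversion -/
def inv (a : M n) : M n :=
  match a.e, a.f with
  | false, false => ⟨-a.i, -a.j, false, false⟩
  | true, false => ⟨-a.j, -a.i, true, false⟩
  | false, true => ⟨a.i, a.j, false, true⟩
  | true, true => ⟨a.j, a.i, true, true⟩

instance instMul : Mul (M n) := ⟨mul⟩
instance instOne : One (M n) := ⟨⟨0, 0, false, false⟩⟩
instance instInv : Inv (M n) := ⟨inv⟩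

variable (i j a b : R n) (e f : Bool)

@[simp] theorem mul_ff : (⟨i, j, false, false⟩ * ⟨a, b, e, f⟩ : M n) = ⟨i + a, j + b, e, f⟩ := rfl
@[simp] theorem mul_tf : (⟨i, j, true, false⟩ * ⟨a, b, e, f⟩ : M n) = ⟨i + b, j + a, !e, f⟩ := rfl
@[simp] theorem mul_ft : (⟨i, j, false, true⟩ * ⟨a, b, e, f⟩ : M n) = ⟨i - a, j - b, e, !f⟩ := rfl
@[simp] theorem mul_tt : (⟨i, j, true, true⟩ * ⟨a, b, e, f⟩ : M n) = ⟨i - b, j - a, !e, !f⟩ := rfl
@[simp] theorem inv_ff : (⟨i, j, false, false⟩ : M n)⁻¹ = ⟨-i, -j, false, false⟩ := rfl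
@[simp] theorem inv_tf : (⟨i, j, true, false⟩ : M n)⁻¹ = ⟨-j, -i, true, false⟩ := rfl
@[simp] theorem inv_ft : (⟨i, j, false, true⟩ : M n)⁻¹ = ⟨i, j, false, true⟩ := rfl
@[simp] theorem inv_tt : (⟨i, j, true, true⟩ : M n)⁻¹ = ⟨j, i, true, true⟩ := rfl
theorem one_def : (1 : M n) = ⟨0, 0, false, false⟩ := rfl

instance instGroup : Group (M n) := Group.ofLeftAxioms
  (by
    rintro ⟨i, j, _ | _, _ | _⟩ ⟨a, b, _ | _, _ | _⟩ ⟨c, d, e, f⟩ <;> simp <;>
      constructor <;> ring)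
  (by rintro ⟨i, j, e, f⟩; simp [one_def])
  (by rintro ⟨i, j, _ | _, _ | _⟩ <;> simp [one_def])

theorem card : Nat.card (M n) = 2 ^ (2 * n + 6) := by
  have : M n ≃ R n × R n × Bool × Bool :=
    ⟨fun a => (a.i, a.j, a.e, a.f), fun a => ⟨a.1, a.2.1, a.2.2.1, a.2.2.2⟩, fun _ => rfl, fun _ => rfl⟩
  rw [Nat.card_congr this]
  simp
  ring

theorem isPGroup : IsPGroup 2 (M n) := IsPGroup.of_card card

theorem mul_e (a b : M n) : (a * b).e = xor a.e b.e := by
  obtain ⟨i, j, _ | _, _ | _⟩ := a <;> obtain ⟨c, d, e, f⟩ := b <;> simp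

theorem mul_f (a b : M n) : (a * b).f = xor a.f b.f := by
  obtain ⟨i, j, _ | _, _ | _⟩ := a <;> obtain ⟨c, d, e, f⟩ := b <;> simp

theorem inv_e (a : M n) : a⁻¹.e = a.e := by obtain ⟨i, j, _ | _, _ | _⟩ := a <;> simp
theorem inv_f (a : M n) : a⁻¹.f = a.f := by obtain ⟨i, j, _ | _, _ | _⟩ := a <;> simp

theorem pow_ff (m : ℕ) : (⟨i, j, false, false⟩ : M n) ^ m = ⟨m * i, m * j, false, false⟩ := by
  induction m with
  | zero => simp [one_def]
  | succ m ih => rw [pow_succ, ih]; simp; constructor <;> ring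

theorem zpow_ff (m : ℤ) : (⟨i, j, false, false⟩ : M n) ^ m = ⟨m * i, m * j, false, false⟩ := by
  obtain ⟨m, rfl | rfl⟩ := Int.eq_nat_or_neg m <;> simp [pow_ff]

end M

open M

/-- the central involution -/
def z : M n := ⟨2 * q n, 2 * q n, false, false⟩
/-- a non-central involution of the normal four-group -/
def x0 : M n := ⟨2 * q n, 0, false, false⟩
def y0 : M n := ⟨0, 2 * q n, false, false⟩
def i1 : M n := ⟨q n, q n, false, false⟩
def i2 : M n := ⟨q n, -q n, false, false⟩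
def n1 : M n := ⟨2 * q n, 0, true, true⟩
def n2 : M n := ⟨2 * q n, 0, true, false⟩
def x1 : M n := ⟨1, 1, false, false⟩
def a0 : M n := ⟨1, 0, false, false⟩
def s0 : M n := ⟨0, 0, true, false⟩
def c0 : M n := ⟨0, 0, false, true⟩

/-- the first generalized quaternion subgroup -/
def Q1 (n : ℕ) : Subgroup (M n) where
  carrier := {a | a.e = a.f ∧ a.i = a.j + if a.e then 2 * q n else 0}
  one_mem' := by simp [one_def]
  mul_mem' := by
    rintro ⟨i, j, _ | _, _ | _⟩ ⟨a, b, _ | _, _ | _⟩ <;> simp <;> intro h1 h2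
    · rw [h1, h2]
    · rw [h1, h2]; ring
    · rw [h1, h2]; ring
    · rw [h1, h2]; linear_combination q4
  inv_mem' := by
    rintro ⟨i, j, _ | _, _ | _⟩ <;> simp
    intro h; rw [h]; linear_combination -q4

theorem mem_Q1 {a : M n} : a ∈ Q1 n ↔ a.e = a.f ∧ a.i = a.j + if a.e then 2 * q n else 0 := Iff.rfl

theorem mem_Q1' {a : M n} : a ∈ Q1 n ↔
    ∃ i, a = ⟨i, i, false, false⟩ ∨ a = ⟨i + 2 * q n, i, true, true⟩ := by
  obtain ⟨i, j, _ | _, _ | _⟩ := a <;> simp [mem_Q1]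
  exact eq_comm

/-- the automorphism interchanging the two quaternion subgroups -/
def τ : M n ≃* M n where
  toFun a := ⟨a.i, -a.j, a.e, xor a.e a.f⟩
  invFun a := ⟨a.i, -a.j, a.e, xor a.e a.f⟩
  left_inv := by rintro ⟨i, j, _ | _, _ | _⟩ <;> simp
  right_inv := by rintro ⟨i, j, _ | _, _ | _⟩ <;> simp
  map_mul' := by
    rintro ⟨i, j, _ | _, _ | _⟩ ⟨a, b, _ | _, _ | _⟩ <;> simp <;> (try constructor) <;> ring

@[simp] theorem τ_mk (i j : R n) (e f : Bool) : τ (⟨i, j, e, f⟩ : M n) = ⟨i, -j, e, xor e f⟩ := rfl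

@[simp] theorem τ_τ (a : M n) : τ (τ a) = a := τ.left_inv a

/-- the second generalized quaternion subgroup -/
def Q2 (n : ℕ) : Subgroup (M n) := (Q1 n).comap τ.toMonoidHom

theorem mem_Q2 {a : M n} : a ∈ Q2 n ↔ τ a ∈ Q1 n := Iff.rfl

theorem mem_Q2' {a : M n} : a ∈ Q2 n ↔
    ∃ i, a = ⟨i, -i, false, false⟩ ∨ a = ⟨i + 2 * q n, -i, true, false⟩ := by
  rw [mem_Q2, mem_Q1']
  refine exists_congr fun i => or_congr ?_ ?_ <;>
    exact ⟨fun h => by rw [← τ_τ a, h]; simp, fun h => by rw [h]; simp⟩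

theorem neg_h : -(2 * q n) = 2 * q n := by linear_combination -q4

@[simp] theorem τ_z : τ (z : M n) = z := by simp [z, neg_h]
@[simp] theorem τ_x0 : τ (x0 : M n) = x0 := by simp [x0]
@[simp] theorem τ_i1 : τ (i1 : M n) = i2 := by simp [i1, i2]
@[simp] theorem τ_i2 : τ (i2 : M n) = i1 := by simp [i1, i2]
@[simp] theorem τ_n1 : τ (n1 : M n) = n2 := by simp [n1, n2]
@[simp] theorem τ_n2 : τ (n2 : M n) = n1 := by simp [n1, n2]
@[simp] theorem τ_a0 : τ (a0 : M n) = a0 := by simp [a0]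

theorem z_ne : (z : M n) ≠ 1 := by simp [z, one_def, q2]
theorem z_z : (z : M n) * z = 1 := by simp [z, one_def]; linear_combination q4
theorem z_comm (a : M n) : a * z = z * a := by
  obtain ⟨i, j, _ | _, _ | _⟩ := a <;> simp [z, add_comm] <;> constructor <;> linear_combination -q4
theorem x0_ne : (x0 : M n) ≠ 1 := by simp [x0, one_def, q2]
theorem x0_ne_z : (x0 : M n) ≠ z := by simp [x0, z, q2.symm]
theorem x0_x0 : (x0 : M n) * x0 = 1 := by simp [x0, one_def]; linear_combination q4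
theorem i1_i1 : (i1 : M n) * i1 = z := by simp [i1, z]; ring
theorem i2_i2 : (i2 : M n) * i2 = z := by
  simp [i2, z]; constructor
  · ring
  · linear_combination -q4
theorem n1_n1 : (n1 : M n) * n1 = z := by simp [n1, z, neg_h]
theorem s0_x0 : (s0 : M n) * y0 * s0⁻¹ = x0 := by simp [s0, x0, y0]
theorem x0_y0 : (x0 : M n) * y0 = z := by simp [z, x0, y0]
theorem i1_mem : i1 ∈ Q1 n := by simp [mem_Q1, i1]
theorem n1_mem : n1 ∈ Q1 n := by simp [mem_Q1, n1]
theorem x1_mem : x1 ∈ Q1 n := by simp [mem_Q1, x1]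
theorem z_mem : z ∈ Q1 n := by simp [mem_Q1, z]
theorem i2_mem : i2 ∈ Q2 n := by rw [mem_Q2, τ_i2]; exact i1_mem
theorem n2_mem : n2 ∈ Q2 n := by rw [mem_Q2, τ_n2]; exact n1_mem
theorem z_mem2 : z ∈ Q2 n := by rw [mem_Q2, τ_z]; exact z_mem

theorem Q_comm {a b : M n} (ha : a ∈ Q1 n) (hb : b ∈ Q2 n) : a * b = b * a := by
  obtain ⟨i, rfl | rfl⟩ := mem_Q1'.1 ha <;> obtain ⟨j, rfl | rfl⟩ := mem_Q2'.1 hb <;> simp <;>
    constructor <;> first | ring1 | linear_combination q4 | linear_combination -q4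

theorem Q_inf {a : M n} (ha : a ∈ Q1 n) (hb : a ∈ Q2 n) : a = 1 ∨ a = z := by
  obtain ⟨i, rfl | rfl⟩ := mem_Q1'.1 ha <;> obtain ⟨j, h | h⟩ := mem_Q2'.1 hb <;> simp at h
  obtain ⟨rfl, h⟩ := h
  rcases two_mul_eq_zero (a := i) (by linear_combination h) with rfl | rfl
  · left; rfl
  · right; rfl

/-- the central involution is unique -/
theorem eq_z_of_central {a : M n} (h1 : a ≠ 1) (h2 : a * a = 1) (hc : ∀ b, b * a = a * b) : a = z := by
  have ha := hc a0
  have hs := hc s0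
  obtain ⟨i, j, _ | _, _ | _⟩ := a <;> simp [a0, s0, one_def] at ha hs h1 h2
  · obtain ⟨rfl, -⟩ := hs
    rcases two_mul_eq_zero (a := j) (by linear_combination h2.1) with rfl | rfl
    · simp at h1
    · rfl
  · exact absurd (by linear_combination ha) (two_ne_zero' (n := n))
  · exact absurd (by linear_combination ha) (odd_ne_zero (0 : R n))
  · exact absurd (by linear_combination ha.1) (odd_ne_zero (0 : R n))

end Cfsg.Agent.G2S
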