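import Cfsg.Agent.G2S.Model
import Cfsg.Agent.H42.Index2

/-! Computations in the Sylow 2-subgroup of `G₂(q)`. -/

set_option autoImplicit false

namespace Cfsg.Agent.G2S

open M Subgroup
open scoped commutatorElement

variable {n : ℕ}

/-- the involutions whose centraliser is elementary abelian of order eight -/
def Mixed (y : M n) : Prop := ∃ i b, y = ⟨i, i + 2 * b + 1, false, true⟩

theorem inv_cases {y : M n} (h : y * y = 1) : (∃ r, r * y = y * r ∧ r * r = z) ∨ Mixed y := by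
  obtain ⟨i, j, _ | _, _ | _⟩ := y <;> simp [one_def] at h
  · exact Or.inl ⟨i1, by simp [i1, add_comm], i1_i1⟩
  · obtain ⟨b, hb | hb⟩ := parity (j - i)
    · refine Or.inl ⟨⟨-b, 2 * q n + b, true, false⟩, ?_, ?_⟩ <;> simp [z]
      constructor
      · linear_combination hb
      · linear_combination -hb + q4
    · exact Or.inr ⟨i, b, by simp; linear_combination hb⟩
  · exact Or.inl ⟨i1, by simp [i1, add_comm], i1_i1⟩
  · exact Or.inl ⟨i2, by simp [i2]; constructor <;> ring, i2_i2⟩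

theorem inv_A {i j : R n} (h : (⟨i, j, false, false⟩ : M n) * ⟨i, j, false, false⟩ = 1) :
    (⟨i, j, false, false⟩ : M n) = 1 ∨ (⟨i, j, false, false⟩ : M n) = z ∨
      (⟨i, j, false, false⟩ : M n) = x0 ∨ (⟨i, j, false, false⟩ : M n) = y0 := by
  simp [one_def] at h
  rcases two_mul_eq_zero (a := i) (by linear_combination h.1) with rfl | rfl <;>
    rcases two_mul_eq_zero (a := j) (by linear_combination h.2) with rfl | rfl <;>
    simp [one_def, z, x0, y0]

theorem sq_A (r : M n) : ∃ i j, r * r = ⟨i, j, false, false⟩ := by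
  obtain ⟨i, j, _ | _, _ | _⟩ := r <;> simp

theorem mixed_x0 {y : M n} (h : Mixed y) : ∃ s, s * y * s⁻¹ = x0 * y := by
  obtain ⟨i, b, rfl⟩ := h
  exact ⟨⟨q n, 0, false, false⟩, by simp [x0]; ring⟩

theorem mixed_y0 {y : M n} (h : Mixed y) : ∃ s, s * y * s⁻¹ = y0 * y := by
  obtain ⟨i, b, rfl⟩ := h
  exact ⟨⟨0, q n, false, false⟩, by simp [y0]; ring⟩

theorem mixed_mul {y : M n} (h : Mixed y) : x0 * y * (y0 * y) = z := by
  obtain ⟨i, b, rfl⟩ := h
  simp [x0, y0, z, neg_h]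

theorem Mixed.f {y : M n} (h : Mixed y) : y.f = true := by obtain ⟨i, b, rfl⟩ := h; rfl

theorem y0_ne : (y0 : M n) ≠ 1 := by simp [y0, one_def, q2]

/-- the wreathed maximal subgroup -/
def W (n : ℕ) : Subgroup (M n) where
  carrier := {a | a.f = false}
  one_mem' := rfl
  mul_mem' := by intro a b ha hb; simp_all [mul_f]
  inv_mem' := by intro a ha; simp_all [inv_f]

/-- the centraliser of the normal four-group -/
def B (n : ℕ) : Subgroup (M n) where
  carrier := {a | a.e = false}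
  one_mem' := rfl
  mul_mem' := by intro a b ha hb; simp_all [mul_e]
  inv_mem' := by intro a ha; simp_all [inv_e]

theorem mem_W {a : M n} : a ∈ W n ↔ a.f = false := Iff.rfl
theorem mem_B {a : M n} : a ∈ B n ↔ a.e = false := Iff.rfl

theorem W_index : (W n).index = 2 := index_eq_two_iff.2 ⟨c0, fun b => by
  rw [mem_W, mem_W, mul_f]; cases b.f <;> simp [c0]⟩

theorem B_index : (B n).index = 2 := index_eq_two_iff.2 ⟨s0, fun b => by
  rw [mem_B, mem_B, mul_e]; cases b.e <;> simp [s0]⟩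

theorem inv_W {y : M n} (hy : y ∈ W n) (h : y * y = 1) :
    y = 1 ∨ y = z ∨ y = x0 ∨ y = y0 ∨ ∃ s, s * s0 * s⁻¹ = y := by
  obtain ⟨i, j, _ | _, _ | _⟩ := y <;> simp [mem_W] at hy
  · rcases inv_A h with h | h | h | h <;> simp [h]
  · simp [one_def] at h
    exact Or.inr (Or.inr (Or.inr (Or.inr ⟨⟨i, 0, false, false⟩, by
      simp [s0]; linear_combination -h.1⟩)))

theorem pow_four_of_comm {i j : R n} {r : M n}
    (h : r * ⟨i, j, false, true⟩ = ⟨i, j, false, true⟩ * r) : r * r * (r * r) = 1 := by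
  obtain ⟨a, b, _ | _, _ | _⟩ := r <;> simp [one_def] at h ⊢
  · constructor
    · linear_combination 2 * h.1
    · linear_combination 2 * h.2
  · constructor <;> linear_combination h.1 + h.2
  · constructor
    · linear_combination h.1 - h.2
    · linear_combination h.2 - h.1

theorem x1_s0 : (x1 : M n) * s0 = s0 * x1 := by simp [x1, s0]
theorem s0_s0 : (s0 : M n) * s0 = 1 := by simp [s0, one_def]
theorem s0_ne : (s0 : M n) ≠ 1 := by simp [s0, one_def]

theorem eq_zero_of_x1 (h : (x1 : M n) * x1 * (x1 * x1) = 1) : n = 0 := by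
  simp [x1, one_def] at h
  exact eq_zero_of_four (by linear_combination h)

theorem mem_B_of_comm {r : M n} (h : r * x0 = x0 * r) : r ∈ B n := by
  obtain ⟨a, b, _ | _, _ | _⟩ := r <;> simp [x0, mem_B, q2] at h ⊢

theorem comm_x0 {r : M n} (h : r ∈ B n) : r * x0 = x0 * r := by
  obtain ⟨a, b, _ | _, _ | _⟩ := r <;> simp [x0, mem_B] at h ⊢
  · ring
  · linear_combination -q4

theorem v_v : (n1 * i2 : M n) * (n1 * i2) = 1 := by
  simp [n1, i2, one_def]; constructor
  · linear_combination q4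
  · linear_combination -q4

theorem v_ne : (n1 * i2 : M n) ≠ 1 := by simp [n1, i2, one_def]
theorem v_ne_z : (n1 * i2 : M n) ≠ z := by simp [n1, i2, z]

theorem i1_inv : (i1 : M n)⁻¹ = c0 * i1 * c0⁻¹ := by simp [i1, c0]
theorem i2_inv : (i2 : M n)⁻¹ = c0 * i2 * c0⁻¹ := by simp [i2, c0]

theorem sq_z_A {i j : R n} (h : (⟨i, j, false, false⟩ : M n) * ⟨i, j, false, false⟩ = z) :
    (⟨i, j, false, false⟩ : M n) = i1 ∨ (⟨i, j, false, false⟩ : M n) = i1⁻¹ ∨
      (⟨i, j, false, false⟩ : M n) = i2 ∨ (⟨i, j, false, false⟩ : M n) = i2⁻¹ := by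
  simp [z] at h
  rcases two_mul_eq (a := i) (by linear_combination h.1) with rfl | rfl <;>
    rcases two_mul_eq (a := j) (by linear_combination h.2) with rfl | rfl <;>
    simp [i1, i2]

theorem sq_z_B {r : M n} (hr : r ∈ B n) (h : r * r = z) :
    r = i1 ∨ r = i1⁻¹ ∨ r = i2 ∨ r = i2⁻¹ := by
  obtain ⟨a, b, _ | _, _ | _⟩ := r <;> simp [mem_B] at hr
  · exact sq_z_A h
  · simp [z, q2.symm] at h

theorem sq_z {r : M n} (h : r * r = z) : (∃ s, s * i1 * s⁻¹ = r) ∨ (∃ s, s * n1 * s⁻¹ = r) ∨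
    (∃ s, s * i2 * s⁻¹ = r) ∨ ∃ s, s * n2 * s⁻¹ = r := by
  by_cases hr : r ∈ B n
  · rcases sq_z_B hr h with h | h | h | h
    · exact Or.inl ⟨1, by simp [h]⟩
    · exact Or.inl ⟨c0, by rw [h, i1_inv]⟩
    · exact Or.inr (Or.inr (Or.inl ⟨1, by simp [h]⟩))
    · exact Or.inr (Or.inr (Or.inl ⟨c0, by rw [h, i2_inv]⟩))
  obtain ⟨a, b, _ | _, _ | _⟩ := r <;> simp [mem_B] at hr <;> simp [z] at h
  · exact Or.inr (Or.inr (Or.inr ⟨⟨-b, 0, false, false⟩, by simp [n2]; linear_combination -h.1⟩))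
  · exact Or.inr (Or.inl ⟨⟨b, 0, false, false⟩, by simp [n1]; linear_combination -h.1⟩)

theorem one_ne_h : (1 : R n) ≠ 2 * q n := fun h => odd_ne_zero (-q n) (by linear_combination h)

theorem mem_B_of_conj {r : M n} (h : r * r = z) (h2 : a0 * r * a0⁻¹ = r ∨ a0 * r * a0⁻¹ = r⁻¹) :
    r ∈ B n := by
  have h0 : (1 : R n) ≠ 0 := fun h => odd_ne_zero (0 : R n) (by linear_combination h)
  obtain ⟨a, b, _ | _, _ | _⟩ := r <;> simp [a0, mem_B, z, h0] at h h2 ⊢
  · exact one_ne_h (by linear_combination h2.1 - h.1 - q4)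
  · exact one_ne_h (by linear_combination h2.1 - h.1 - q4)

theorem conj_diag (s : M n) (i : R n) : s * ⟨i, i, false, false⟩ * s⁻¹ = ⟨i, i, false, false⟩ ∨
    s * ⟨i, i, false, false⟩ * s⁻¹ = (⟨i, i, false, false⟩ : M n)⁻¹ := by
  obtain ⟨a, b, _ | _, _ | _⟩ := s <;> simp

theorem conj_i1 (s : M n) : s * i1 * s⁻¹ = i1 ∨ s * i1 * s⁻¹ = i1⁻¹ := conj_diag s _

theorem conj_i2 (s : M n) : s * i2 * s⁻¹ = i2 ∨ s * i2 * s⁻¹ = i2⁻¹ := by
  obtain ⟨a, b, _ | _, _ | _⟩ := s <;> simp [i2]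

theorem i1_ne_i2 : (i1 : M n) ≠ i2 := by
  simp [i1, i2]; exact fun h => q2 (by linear_combination h)

theorem i1_ne_i2' : (i1 : M n) ≠ i2⁻¹ := by
  simp [i1, i2]; exact fun h => q2 (by linear_combination h)

theorem n1_notMem_B : (n1 : M n) ∉ B n := by simp [n1, mem_B]
theorem i1_mem_B : (i1 : M n) ∈ B n := by simp [i1, mem_B]

theorem i2_mul_ne {a b : M n} (ha : a = i2 ∨ a = i2⁻¹) (hb : b = i2 ∨ b = i2⁻¹) : a * b ≠ x0 := by
  have h1 : -q n + -q n ≠ 0 := fun h => q2 (by linear_combination -h)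
  have h2 : q n + q n ≠ 0 := fun h => q2 (by linear_combination h)
  rcases ha with rfl | rfl <;> rcases hb with rfl | rfl <;> simp [i2, x0, q2.symm, h1, h2]

instance Q1_normal : (Q1 n).Normal := ⟨by
  intro r hr s
  obtain ⟨i, rfl | rfl⟩ := mem_Q1'.1 hr <;> obtain ⟨a, b, _ | _, _ | _⟩ := s <;> simp [mem_Q1] <;>
    first | ring1 | linear_combination q4 | linear_combination -q4⟩

instance Q2_normal : (Q2 n).Normal := Normal.comap inferInstance _

theorem sc_step {y : M n} (h : y * y ∈ Q1 n) (h4 : y * y * (y * y) ≠ 1) :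
    y ∈ Q1 n ∨ n1 * y * (n1 * y) = 1 := by
  obtain ⟨a, b, _ | _, _ | _⟩ := y <;> simp [mem_Q1, one_def, n1] at h h4 ⊢
  · rcases two_mul_eq_zero (a := a - b) (by linear_combination h) with h | h
    · left; linear_combination h
    · right; constructor
      · linear_combination h + q4
      · linear_combination -h - q4
  · exact absurd (by linear_combination -h) (h4 (by linear_combination h))

theorem Q1_inv {r : M n} (hr : r ∈ Q1 n) (h : r * r = 1) : r = 1 ∨ r = z := by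
  obtain ⟨i, rfl | rfl⟩ := mem_Q1'.1 hr <;> simp [one_def] at h
  · rcases two_mul_eq_zero (a := i) (by linear_combination h) with rfl | rfl
    · left; rfl
    · right; rfl
  · exact absurd h q2

theorem Q1_diag {r : M n} (hr : r ∈ Q1 n) (h : r * r * (r * r) ≠ 1) : ∃ i, r = ⟨i, i, false, false⟩ := by
  obtain ⟨i, rfl | rfl⟩ := mem_Q1'.1 hr
  · exact ⟨i, rfl⟩
  · simp [one_def] at h
    exact absurd (by linear_combination -q4) (h (by linear_combination q4))

theorem mem_Q1_of_comm {a : M n} (h : ∀ b ∈ Q2 n, a * b = b * a) : a ∈ Q1 n := by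
  have h1 := h ⟨1, -1, false, false⟩ (mem_Q2'.2 ⟨1, Or.inl rfl⟩)
  have h2 := h n2 n2_mem
  obtain ⟨i, j, _ | _, _ | _⟩ := a <;> simp [n2, mem_Q1] at h1 h2 ⊢
  · linear_combination h2.1
  · exact absurd (by linear_combination -h1.1) (two_ne_zero' (n := n))
  · exact absurd (by linear_combination -h1.1) (two_ne_zero' (n := n))
  · linear_combination h2.1

theorem x1_mem_comm : (x1 : M n) ∈ commutator (M n) := by
  have h : (x1 : M n) = ⁅(a0 : M n), s0⁆ * ⁅(⟨0, 1, false, false⟩ : M n), c0⁆ := by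
    simp [commutatorElement_def, a0, s0, c0, x1]
  rw [h]
  exact mul_mem (commutator_mem_commutator (mem_top _) (mem_top _))
    (commutator_mem_commutator (mem_top _) (mem_top _))

theorem diag_mem (i : R n) : (⟨i, i, false, false⟩ : M n) ∈ zpowers (x1 : M n) := by
  obtain ⟨i, rfl⟩ := ZMod.intCast_surjective i
  exact ⟨i, by simp [x1, zpow_ff]⟩

theorem Q1_eq : Q1 n = zpowers x1 ⊔ zpowers n1 := by
  refine le_antisymm (fun r hr => ?_) (sup_le (zpowers_le.2 x1_mem) (zpowers_le.2 n1_mem))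
  obtain ⟨i, rfl | rfl⟩ := mem_Q1'.1 hr
  · exact mem_sup_left (diag_mem i)
  · have : (⟨i + 2 * q n, i, true, true⟩ : M n) = ⟨i, i, false, false⟩ * n1 := by simp [n1]
    rw [this]
    exact mul_mem (mem_sup_left (diag_mem i)) (mem_sup_right (mem_zpowers _))

theorem natCast_eq_zero {m : ℕ} : (m : R n) = 0 ↔ 2 ^ (n + 2) ∣ m := ZMod.natCast_eq_zero_iff _ _

theorem orderOf_x1 : orderOf (x1 : M n) = 2 * 2 ^ (n + 1) := by
  refine Nat.dvd_antisymm (orderOf_dvd_of_pow_eq_one ?_) ?_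
  · simp [x1, pow_ff, one_def]; linear_combination pow_top
  · have := pow_orderOf_eq_one (x1 : M n)
    simp only [x1, pow_ff, one_def, mul_one, M.mk.injEq] at this
    rw [← pow_succ']
    exact natCast_eq_zero.1 this.1

theorem Q1_quaternion : Nonempty (Q1 n ≃* QuaternionGroup (2 ^ (n + 1))) := by
  rw [Q1_eq]
  refine H42.quaternion_recog (by positivity) orderOf_x1 ?_ ?_ ?_
  · simp [n1, x1, pow_ff, q]
    constructor
    · ring
    · linear_combination -pow_top
  · simp [n1, x1]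
  · rintro ⟨m, hm⟩
    simp [x1, zpow_ff, n1] at hm

theorem a0_ne {a b : M n} (ha : a ∈ Q1 n) (hb : b ∈ Q2 n) : a * b ≠ a0 := by
  obtain ⟨i, rfl | rfl⟩ := mem_Q1'.1 ha <;> obtain ⟨j, rfl | rfl⟩ := mem_Q2'.1 hb <;> simp [a0]
  exact fun h h' => odd_ne_zero (-i) (by linear_combination -h - h')

theorem a0_n1 : ¬ ((a0 : M n) * n1 * a0⁻¹ = n1 ∨ (a0 : M n) * n1 * a0⁻¹ = n1⁻¹) := fun h =>
  n1_notMem_B (mem_B_of_conj n1_n1 h)

theorem i1_notMem_Q2 : (i1 : M n) ∉ Q2 n := fun h => by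
  rcases Q_inf i1_mem h with h | h
  · exact z_ne (by rw [← i1_i1, h, mul_one])
  · exact z_ne (by rw [← i1_i1, h, z_z])

/-- the quotient by `Q₂` is dihedral -/
theorem dihedral_range {Y : Type*} [Group Y] (φ : M n →* Y) (hφ : ∀ a, φ a = 1 ↔ a ∈ Q2 n) :
    Nonempty (φ.range ≃* DihedralGroup (2 ^ (n + 2))) := by
  have ha : ∀ i : R n, φ ⟨i, 0, false, false⟩ ∈ zpowers (φ a0) := fun i => by
    obtain ⟨i, rfl⟩ := ZMod.intCast_surjective i
    exact ⟨i, by simp only [← map_zpow, a0, zpow_ff]; simp⟩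
  have hA : ∀ i j : R n, φ ⟨i, j, false, false⟩ ∈ zpowers (φ a0) := fun i j => by
    have : (⟨i, j, false, false⟩ : M n) = ⟨i + j, 0, false, false⟩ * ⟨-j, j, false, false⟩ := by simp
    rw [this, map_mul, (hφ ⟨-j, j, false, false⟩).2 (mem_Q2'.2 ⟨-j, Or.inl (by simp)⟩), mul_one]
    exact ha _
  have hW : ∀ a ∈ W n, φ a ∈ zpowers (φ a0) := by
    rintro ⟨i, j, _ | _, _ | _⟩ h <;> simp [mem_W] at h
    · exact hA i j
    · have : (⟨i, j, true, false⟩ : M n) = ⟨i - 2 * q n, j, false, false⟩ * n2 := by simp [n2]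
      rw [this, map_mul, (hφ _).2 n2_mem, mul_one]
      exact hA _ _
  have e : φ.range = zpowers (φ a0) ⊔ zpowers (φ c0) := by
    refine le_antisymm ?_ (sup_le (zpowers_le.2 ⟨_, rfl⟩) (zpowers_le.2 ⟨_, rfl⟩))
    rintro _ ⟨a, rfl⟩
    by_cases h : a ∈ W n
    · exact mem_sup_left (hW a h)
    · rw [← mul_inv_cancel_right a c0⁻¹, map_mul, inv_inv]
      refine mul_mem (mem_sup_left (hW _ ?_)) (mem_sup_right (mem_zpowers _))
      rw [mem_W] at h ⊢
      rw [mul_f, inv_f]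
      simpa [c0] using h
  rw [e]
  refine H42.dihedral_recog (by positivity) ?_ ?_ ?_ ?_
  · refine Nat.dvd_antisymm (orderOf_dvd_of_pow_eq_one ?_) ?_
    · rw [← map_pow, a0, pow_ff, ZMod.natCast_self]; simp [← one_def]
    · have := pow_orderOf_eq_one (φ a0)
      rw [← map_pow, hφ, mem_Q2] at this
      rw [← natCast_eq_zero]
      simpa [a0, pow_ff, mem_Q1] using this
  · rw [← map_mul]; simp [c0, ← one_def]
  · rw [← map_inv, ← map_mul, ← map_mul, ← map_inv]; simp [c0, a0]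
  · rintro ⟨m, hm⟩
    have : φ (a0 ^ m * c0⁻¹) = 1 := by rw [map_mul, map_zpow, map_inv, ← hm]; simp
    rw [hφ, mem_Q2] at this
    simp [a0, c0, zpow_ff, mem_Q1] at this

end Cfsg.Agent.G2S
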